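import Mathlib
import Cfsg.Agent.Lib.Helper82.S4415.MonDefs

/-!
# S4415 [MON]: basic facts on signed permutation data `SP σ ε`
-/

set_option autoImplicit false

namespace Cfsg.Agent.Lib.Helper74.S4415

open Cfsg.Agent.Lib.Helper82.S4415

universe u w

variable {G : Type u} [Group G] {ι : Type w} {σ : G →* Equiv.Perm ι} {ε : G → ι → ZMod 3}

theorem sign_mul_self {a : ZMod 3} (h : a = 1 ∨ a = -1) : a * a = 1 := by
  rcases h with h | h <;> rw [h] <;> ring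

theorem sp_eps_one (h : SP σ ε) (i : ι) : ε 1 i = 1 := by
  have h1 := h.2.1 1 1 i
  rw [mul_one, map_one, Equiv.Perm.one_apply] at h1
  rcases h.1 1 i with h2 | h2
  · exact h2
  · rw [h2] at h1
    exfalso
    revert h1
    decide

theorem sp_eps_inv (h : SP σ ε) (g : G) (i : ι) : ε g⁻¹ i = ε g (σ g⁻¹ i) := by
  have h1 := h.2.1 g g⁻¹ i
  rw [mul_inv_cancel, sp_eps_one h] at h1
  have h2 := sign_mul_self (h.1 g (σ g⁻¹ i))
  calc ε g⁻¹ i = ε g⁻¹ i * (ε g (σ g⁻¹ i) * ε g (σ g⁻¹ i)) := by rw [h2, mul_one]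
    _ = (ε g⁻¹ i * ε g (σ g⁻¹ i)) * ε g (σ g⁻¹ i) := by ring
    _ = ε g (σ g⁻¹ i) := by rw [← h1, one_mul]

theorem sp_inj (h : SP σ ε) (g k : G) (hσ : σ g = σ k) (hε : ∀ i, ε g i = ε k i) : g = k := by
  have h1 : g * k⁻¹ = 1 := by
    apply h.2.2
    · rw [map_mul, map_inv, hσ, mul_inv_cancel]
    · intro i
      rw [h.2.1, sp_eps_inv h, hε]
      exact sign_mul_self (h.1 k _)
  exact mul_inv_eq_one.mp h1

end Cfsg.Agent.Lib.Helper74.S4415
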