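import Mathlib
import Cfsg.Agent.Lib.Helper82.S4415.MonDefs
import Cfsg.Agent.Lib.Helper74.S4415.SPFacts

/-!
# S4415 [MON-3]: degree 3, `R` is a four-group
-/

set_option autoImplicit false

namespace Cfsg.Agent.Lib.Helper74.S4415

open Cfsg.Agent.Lib.Helper82.S4415

universe u

theorem card_even_sign3 :
    Fintype.card {d : Fin 3 → ZMod 3 // (∀ i, d i = 1 ∨ d i = -1) ∧ ∏ i, d i = 1} = 4 := by
  decide +kernel

theorem pkgMon3 : PkgMon3.{u} := by
  intro G _ _ R Q σ ε hSP hσR hprod hQR hQ4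
  have hinj : ∀ r ∈ R, ∀ s ∈ R, (∀ i, ε r i = ε s i) → r = s := by
    intro r hr s hs h
    exact sp_inj hSP r s (by rw [hσR r hr, hσR s hs]) h
  have hle : Nat.card ↥R ≤ 4 := by
    have hf : Function.Injective
        (fun r : ↥R => (⟨ε r.1, hSP.1 r.1, hprod r.1 r.2⟩ :
          {d : Fin 3 → ZMod 3 // (∀ i, d i = 1 ∨ d i = -1) ∧ ∏ i, d i = 1})) := by
      intro r s hrs
      have h1 : ε r.1 = ε s.1 := congrArg Subtype.val hrs
      exact Subtype.ext (hinj r.1 r.2 s.1 s.2 (fun i => congrFun h1 i))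
    have h := Nat.card_le_card_of_injective _ hf
    have h4 : Nat.card {d : Fin 3 → ZMod 3 // (∀ i, d i = 1 ∨ d i = -1) ∧ ∏ i, d i = 1} = 4 := by
      rw [Nat.card_eq_fintype_card]; exact card_even_sign3
    rw [h4] at h
    exact h
  have hge : 4 ≤ Nat.card ↥R := by
    rw [← hQ4]
    exact Subgroup.card_le_of_le hQR
  refine ⟨⟨⟨⟨fun a c => ?_⟩⟩, fun a ha => ?_⟩, le_antisymm hle hge⟩
  · apply Subtype.ext
    show a.1 * c.1 = c.1 * a.1
    apply hinj _ (R.mul_mem a.2 c.2) _ (R.mul_mem c.2 a.2)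
    intro i
    rw [hSP.2.1, hSP.2.1, hσR c.1 c.2, hσR a.1 a.2, Equiv.Perm.one_apply, mul_comm]
  · rw [pow_two]
    apply hinj _ (R.mul_mem ha ha) _ R.one_mem
    intro i
    rw [hSP.2.1, hσR a ha, Equiv.Perm.one_apply, sp_eps_one hSP]
    exact sign_mul_self (hSP.1 a i)

end Cfsg.Agent.Lib.Helper74.S4415
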