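import Mathlib
import Cfsg.Agent.Lib.Helper82.S4415.MonDefs
import Cfsg.Agent.Lib.Helper74.S4415.SPFacts

/-!
# S4415 [MON-4C]: degree 4, `|R| = 32`
-/

set_option autoImplicit false

namespace Cfsg.Agent.Lib.Helper74.S4415

open Cfsg.Agent.Lib.Helper82.S4415

universe u

theorem card_even_sign4 :
    Fintype.card {d : Fin 4 → ZMod 3 // (∀ i, d i = 1 ∨ d i = -1) ∧ ∏ i, d i = 1} = 8 := by
  decide +kernel

theorem card_oneOrFpf4 :
    Fintype.card {p : Equiv.Perm (Fin 4) // p = 1 ∨ ∀ i, p i ≠ i ∧ p (p i) = i} = 4 := by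
  decide +kernel

theorem pkgMon4C : PkgMon4C.{u} := by
  intro G _ _ R σ ε hSP hfpf htr hprod hall
  obtain ⟨f, hf⟩ : ∃ f : ↥R →* Equiv.Perm (Fin 4), f = σ.comp R.subtype := ⟨_, rfl⟩
  have hfa : ∀ r : ↥R, f r = σ r.1 := fun r => by rw [hf]; rfl
  have h1 : Nat.card ↥R = Nat.card f.ker * Nat.card f.range := by
    rw [← Subgroup.index_ker f]
    exact (Subgroup.card_mul_index f.ker).symm
  -- the range
  have hrange : Nat.card f.range = 4 := by
    apply le_antisymm
    · have hg : Function.Injective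
          (fun k : ↥f.range => (⟨k.1, by
            obtain ⟨r, hr⟩ := k.2
            rw [← hr, hfa]
            exact hfpf r.1 r.2⟩ :
            {p : Equiv.Perm (Fin 4) // p = 1 ∨ ∀ i, p i ≠ i ∧ p (p i) = i})) := by
        intro k l hkl
        have h0 : k.1 = l.1 := congrArg
          (fun q : {p : Equiv.Perm (Fin 4) // p = 1 ∨ ∀ i, p i ≠ i ∧ p (p i) = i} => q.1) hkl
        exact Subtype.ext h0
      have h := Nat.card_le_card_of_injective _ hg
      have h4 : Nat.card {p : Equiv.Perm (Fin 4) // p = 1 ∨ ∀ i, p i ≠ i ∧ p (p i) = i} = 4 := by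
        rw [Nat.card_eq_fintype_card]; exact card_oneOrFpf4
      rw [h4] at h
      exact h
    · have hs : Function.Surjective (fun k : ↥f.range => k.1 0) := by
        intro j
        obtain ⟨r, hr, hrj⟩ := htr 0 j
        exact ⟨⟨σ r, ⟨⟨r, hr⟩, hfa _⟩⟩, hrj⟩
      have h := Nat.card_le_card_of_surjective _ hs
      simpa using h
  -- the kernel
  have hker : Nat.card f.ker = 8 := by
    have hk : ∀ r : ↥f.ker, σ r.1.1 = 1 := by
      intro r
      have := r.2
      rw [MonoidHom.mem_ker, hfa] at this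
      exact this
    have hbij : Function.Bijective
        (fun r : ↥f.ker => (⟨ε r.1.1, hSP.1 r.1.1, hprod r.1.1 r.1.2⟩ :
          {d : Fin 4 → ZMod 3 // (∀ i, d i = 1 ∨ d i = -1) ∧ ∏ i, d i = 1})) := by
      constructor
      · intro r s hrs
        have h1 : ε r.1.1 = ε s.1.1 := congrArg Subtype.val hrs
        apply Subtype.ext
        apply Subtype.ext
        exact sp_inj hSP r.1.1 s.1.1 (by rw [hk r, hk s]) (fun i => congrFun h1 i)
      · rintro ⟨d, hd⟩
        obtain ⟨x, hxR, hx1, hxd⟩ := hall d hd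
        refine ⟨⟨⟨x, hxR⟩, ?_⟩, ?_⟩
        · rw [MonoidHom.mem_ker, hfa]
          exact hx1
        · apply Subtype.ext
          funext i
          exact hxd i
    rw [Nat.card_eq_of_bijective _ hbij, Nat.card_eq_fintype_card]
    exact card_even_sign4
  rw [h1, hker, hrange]

end Cfsg.Agent.Lib.Helper74.S4415
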