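import Mathlib
import Cfsg.Agent.Lib.Helper82.S4415.MonDefs

/-!
# S4415 [MON-Q]: a four-group inside `N`, normalized but not centralized by `b`
-/

set_option autoImplicit false

namespace Cfsg.Agent.Lib.Helper74.S4415

open Cfsg.Agent.Lib.Helper82.S4415

universe u

theorem pkgMonQ : PkgMonQ.{u} := by
  intro G _ N b hb hN hc h2 ⟨x, hxN, hx⟩
  have hsq : ∀ a ∈ N, a * a = 1 := fun a ha => by have := h2 a ha; rwa [pow_two] at this
  have hinv : ∀ a ∈ N, a⁻¹ = a := fun a ha => inv_eq_of_mul_eq_one_left (hsq a ha)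
  have hconj : ∀ a ∈ N, b * a * b⁻¹ ∈ N := fun a ha => hN.conj_mem a ha b
  -- x₁ = b x b⁻¹, x₂ = b x₁ b⁻¹
  obtain ⟨x₁, hx₁⟩ : ∃ x₁, x₁ = b * x * b⁻¹ := ⟨_, rfl⟩
  obtain ⟨x₂, hx₂⟩ : ∃ x₂, x₂ = b * x₁ * b⁻¹ := ⟨_, rfl⟩
  have hx₁N : x₁ ∈ N := by rw [hx₁]; exact hconj x hxN
  have hx₂N : x₂ ∈ N := by rw [hx₂]; exact hconj x₁ hx₁N
  have hb3 : b * b * b = 1 := by rw [← pow_two, ← pow_succ]; exact hb
  have hbinv : b⁻¹ = b * b := by
    rw [inv_eq_iff_mul_eq_one, ← mul_assoc]; exact hb3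
  have hx₃ : b * x₂ * b⁻¹ = x := by
    rw [hx₂, hx₁]
    have : b * (b * (b * x * b⁻¹) * b⁻¹) * b⁻¹ = (b * b * b) * x * (b * b * b)⁻¹ := by group
    rw [this, hb3]; group
  have hxx₁ : x ≠ x₁ := by
    intro h
    apply hx
    rw [hx₁] at h
    calc b * x = (b * x * b⁻¹) * b := by group
      _ = x * b := by rw [← h]
  obtain ⟨y, hy⟩ : ∃ y, y = x * x₁ := ⟨_, rfl⟩
  obtain ⟨y₁, hy₁⟩ : ∃ y₁, y₁ = x₁ * x₂ := ⟨_, rfl⟩
  have hyN : y ∈ N := by rw [hy]; exact N.mul_mem hxN hx₁N
  have hy₁N : y₁ ∈ N := by rw [hy₁]; exact N.mul_mem hx₁N hx₂N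
  have hby : b * y * b⁻¹ = y₁ := by
    rw [hy, hy₁, hx₂]
    nth_rewrite 2 [hx₁]
    group
  have hby₁ : b * y₁ * b⁻¹ = y * y₁ := by
    have e1 : b * y₁ * b⁻¹ = x₂ * x := by
      rw [hy₁]
      have : b * (x₁ * x₂) * b⁻¹ = (b * x₁ * b⁻¹) * (b * x₂ * b⁻¹) := by group
      rw [this, ← hx₂, hx₃]
    rw [e1, hy, hy₁]
    -- x₂ x = x x₁ x₁ x₂
    have : x * x₁ * (x₁ * x₂) = x * (x₁ * x₁) * x₂ := by group
    rw [this, hsq x₁ hx₁N, mul_one, hc x hxN x₂ hx₂N]
  have hy1 : y ≠ 1 := by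
    intro h
    apply hxx₁
    rw [hy] at h
    have := eq_inv_of_mul_eq_one_left h
    rw [hinv x₁ hx₁N] at this
    exact this
  have hyy₁ : y ≠ y₁ := by
    intro h
    -- then b y b⁻¹ = y, so y * y = y, y = 1
    have e1 : b * y₁ * b⁻¹ = y₁ := by rw [← h]; rw [hby, ← h]
    rw [hby₁, ← h, hsq y hyN] at e1
    exact hy1 e1.symm
  have hy₁1 : y₁ ≠ 1 := by
    intro h
    apply hy1
    rw [h] at hby
    have : y = b⁻¹ * (b * y * b⁻¹) * b := by group
    rw [this, hby]; group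
  have hyc : y * y₁ = y₁ * y := hc y hyN y₁ hy₁N
  have f1 : y * y = 1 := hsq y hyN
  have f2 : y₁ * y₁ = 1 := hsq y₁ hy₁N
  have f3 : y * (y * y₁) = y₁ := by rw [← mul_assoc, f1, one_mul]
  have f4 : y₁ * y = y * y₁ := hyc.symm
  have f5 : y₁ * (y * y₁) = y := by rw [hyc, ← mul_assoc, f2, one_mul]
  have f6 : y * y₁ * y = y₁ := by rw [hyc, mul_assoc, f1, mul_one]
  have f7 : y * y₁ * y₁ = y := by rw [mul_assoc, f2, mul_one]
  have f8 : y * y₁ * (y * y₁) = 1 := hsq _ (N.mul_mem hyN hy₁N)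
  let Q' : Subgroup G :=
    { carrier := {q | q = 1 ∨ q = y ∨ q = y₁ ∨ q = y * y₁}
      one_mem' := Or.inl rfl
      mul_mem' := by
        intro a c ha hc'
        rcases ha with ha | ha | ha | ha <;> rcases hc' with hc' | hc' | hc' | hc' <;>
          rw [ha, hc']
        · exact Or.inl (one_mul 1)
        · exact Or.inr (Or.inl (one_mul y))
        · exact Or.inr (Or.inr (Or.inl (one_mul y₁)))
        · exact Or.inr (Or.inr (Or.inr (one_mul _)))
        · exact Or.inr (Or.inl (mul_one y))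
        · exact Or.inl f1
        · exact Or.inr (Or.inr (Or.inr rfl))
        · exact Or.inr (Or.inr (Or.inl f3))
        · exact Or.inr (Or.inr (Or.inl (mul_one y₁)))
        · exact Or.inr (Or.inr (Or.inr f4))
        · exact Or.inl f2
        · exact Or.inr (Or.inl f5)
        · exact Or.inr (Or.inr (Or.inr (mul_one _)))
        · exact Or.inr (Or.inr (Or.inl f6))
        · exact Or.inr (Or.inl f7)
        · exact Or.inl f8
      inv_mem' := by
        intro a ha
        rcases ha with ha | ha | ha | ha <;> rw [ha]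
        · exact Or.inl inv_one
        · exact Or.inr (Or.inl (hinv _ hyN))
        · exact Or.inr (Or.inr (Or.inl (hinv _ hy₁N)))
        · exact Or.inr (Or.inr (Or.inr (hinv _ (N.mul_mem hyN hy₁N)))) }
  have hmem : ∀ q, q ∈ Q' ↔ q = 1 ∨ q = y ∨ q = y₁ ∨ q = y * y₁ := fun q => Iff.rfl
  refine ⟨Q', ?_, ?_, ?_, ?_, ?_⟩
  · intro q hq
    rcases (hmem q).mp hq with h | h | h | h <;> rw [h]
    · exact N.one_mem
    · exact hyN
    · exact hy₁N
    · exact N.mul_mem hyN hy₁N
  · -- card = 4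
    classical
    have hcoe : (Q' : Set G) = insert 1 (insert y (insert y₁ {y * y₁})) := by
      ext q
      simp only [Set.mem_insert_iff, Set.mem_singleton_iff]
      exact hmem q
    have h1 : y₁ ∉ ({y * y₁} : Set G) := by
      rw [Set.mem_singleton_iff]
      intro h
      apply hy1
      have : y * y₁ = 1 * y₁ := by rw [one_mul]; exact h.symm
      exact mul_right_cancel this
    have h2' : y ∉ (insert y₁ {y * y₁} : Set G) := by
      rw [Set.mem_insert_iff, Set.mem_singleton_iff]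
      rintro (h | h)
      · exact hyy₁ h
      · apply hy₁1
        have : y * y₁ = y * 1 := by rw [mul_one]; exact h.symm
        exact mul_left_cancel this
    have h3 : (1 : G) ∉ (insert y (insert y₁ {y * y₁}) : Set G) := by
      rw [Set.mem_insert_iff, Set.mem_insert_iff, Set.mem_singleton_iff]
      rintro (h | h | h)
      · exact hy1 h.symm
      · exact hy₁1 h.symm
      · apply hyy₁
        have := eq_inv_of_mul_eq_one_left h.symm
        rw [hinv y₁ hy₁N] at this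
        exact this
    have : Nat.card ↥Q' = Set.ncard (Q' : Set G) := (Nat.card_coe_set_eq (Q' : Set G))
    rw [this, hcoe, Set.ncard_insert_of_notMem h3, Set.ncard_insert_of_notMem h2',
      Set.ncard_insert_of_notMem h1, Set.ncard_singleton]
  · intro q hq
    rcases (hmem q).mp hq with h | h | h | h <;> rw [h]
    · exact one_mul 1
    · exact f1
    · exact f2
    · exact f8
  · intro q hq
    rw [hmem]
    rcases (hmem q).mp hq with h | h | h | h <;> rw [h]
    · left; group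
    · right; right; left; exact hby
    · right; right; right; exact hby₁
    · right; left
      have : b * (y * y₁) * b⁻¹ = (b * y * b⁻¹) * (b * y₁ * b⁻¹) := by group
      rw [this, hby, hby₁, f5]
  · exact ⟨y, (hmem y).mpr (Or.inr (Or.inl rfl)), by rw [hby]; exact fun h => hyy₁ h.symm⟩

end Cfsg.Agent.Lib.Helper74.S4415
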